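import Cfsg.Agent.Simple168.Four
import Cfsg.Agent.SylowToolkit.Counting
import Mathlib

/-!
# Simple groups of order 168: maximal subgroups
-/

set_option autoImplicit false
set_option linter.style.haveILetI false

namespace CfsgLib.Simple168

open CfsgLib.SylowToolkit Subgroup MulAction
open scoped Pointwise

variable {G : Type*} [Group G] [Finite G] [IsSimpleGroup G]

section
variable (h : Nat.card G = 168)

include h

theorem normalizer_four_ne_top {U : Subgroup G} (hU : IsKleinFour U) : normalizer (U : Set G) ≠ ⊤ :=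
  not_normal_of_pGroup h U (four_isPGroup hU) (four_ne_bot h hU)

theorem normalizer_four_isCoatom {U : Subgroup G} (hU : IsKleinFour U) : IsCoatom (normalizer (U : Set G)) := by
  refine ⟨normalizer_four_ne_top h hU, fun H hlt => ?_⟩
  by_contra hH
  exact hlt.ne (eq_of_le_of_card_ge hlt.le (by rw [card_normalizer_four h hU]; exact card_le_of_ne_top h hH))

theorem exists_four : ∃ U : Subgroup G, IsKleinFour U := by
  obtain ⟨T⟩ := (inferInstance : Nonempty (Sylow 2 G))
  obtain ⟨U, -, -, -, -, hU, -⟩ := exists_two_fours h T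
  exact ⟨U, hU⟩

/-- The normalizer of a Sylow 3-subgroup lies in the normalizer of a four-group. -/
theorem normalizer_three_le_four (Q : Sylow 3 G) :
    ∃ U : Subgroup G, IsKleinFour U ∧ normalizer ((Q : Subgroup G) : Set G) ≤ normalizer (U : Set G) := by
  obtain ⟨U, hU⟩ := exists_four h
  set N := normalizer (U : Set G)
  have hN := card_normalizer_four h hU
  obtain ⟨R⟩ := (inferInstance : Nonempty (Sylow 3 N))
  obtain ⟨Q₀, hQ₀⟩ := (R.isPGroup'.map N.subtype).exists_le_sylow
  have hQeq : (R : Subgroup N).map N.subtype = (Q₀ : Subgroup G) := eq_of_le_of_card_ge hQ₀ (by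
    rw [card_three h Q₀, card_map_of_injective N.subtype_injective,
      card_sylow_subgroup_eq (k := 1) (m := 8) (by rw [hN]; norm_num) (by norm_num) R]
    norm_num)
  have hle := (sylow_three_of_24 h hN).2 Q₀ (hQeq ▸ map_subtype_le _)
  obtain ⟨g, hg⟩ := exists_smul_eq G Q₀ Q
  refine ⟨U.map (MulAut.conj g).toMonoidHom, isKleinFour_map h hU g, ?_⟩
  rw [← map_equiv_normalizer_eq, ← hg, Sylow.coe_subgroup_smul]
  show normalizer (((Q₀ : Subgroup G).map (MulAut.conj g).toMonoidHom : Subgroup G) : Set G) ≤ _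
  rw [← map_equiv_normalizer_eq]
  exact map_mono hle

/-- Every subgroup of order dividing 24 lies in the normalizer of a four-group. -/
theorem le_normalizer_four {M : Subgroup G} (hM : Nat.card M ∣ 24) :
    ∃ U : Subgroup G, IsKleinFour U ∧ M ≤ normalizer (U : Set G) := by
  have key : ∀ n ∈ (24 : ℕ).divisors, n = 24 ∨ n = 12 ∨ n = 6 ∨ n = 3 ∨ n ∣ 8 := by decide
  rcases key _ (Nat.mem_divisors.mpr ⟨hM, by norm_num⟩) with h24 | h12 | h6 | h3 | h8
  · obtain ⟨U, hU, e⟩ := exists_four_of_24 h h24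
    exact ⟨U, hU, e.ge⟩
  rotate_left
  rotate_left
  rotate_left
  · have hp : IsPGroup 2 M := by
      have key' : ∀ n ∈ (8 : ℕ).divisors, n = 2 ^ 0 ∨ n = 2 ^ 1 ∨ n = 2 ^ 2 ∨ n = 2 ^ 3 := by decide
      rcases key' _ (Nat.mem_divisors.mpr ⟨h8, by norm_num⟩) with e | e | e | e <;> exact IsPGroup.of_card e
    obtain ⟨T, hT⟩ := hp.exists_le_sylow
    obtain ⟨U, -, -, hUT, -, hU, -⟩ := exists_two_fours h T
    exact ⟨U, hU, hT.trans (four_sylow_le_normalizer h hU hUT)⟩
  all_goals
    obtain ⟨R⟩ := (inferInstance : Nonempty (Sylow 3 M))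
    obtain ⟨Q, hQ⟩ := (R.isPGroup'.map M.subtype).exists_le_sylow
    have hfin : Nat.card (Sylow 3 M) = 1 → ∃ U : Subgroup G, IsKleinFour U ∧ M ≤ normalizer (U : Set G) := by
      intro h1
      obtain ⟨m, hm, hm3⟩ : ∃ m, Nat.card M = 3 ^ 1 * m ∧ ¬ 3 ∣ m := by
        first
          | exact ⟨4, by omega, by norm_num⟩
          | exact ⟨2, by omega, by norm_num⟩
          | exact ⟨1, by omega, by norm_num⟩
      have hQeq : (R : Subgroup M).map M.subtype = (Q : Subgroup G) := eq_of_le_of_card_ge hQ (by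
        rw [card_three h Q, card_map_of_injective M.subtype_injective, card_sylow_subgroup_eq hm hm3 R]
        norm_num)
      have hle : M ≤ normalizer ((Q : Subgroup G) : Set G) := by
        rw [← hQeq]
        intro g hg
        exact le_normalizer_map M.subtype ⟨⟨g, hg⟩, (normalizer_eq_top_iff.mpr (sylow_normal_of_card_eq_one h1 R)).symm ▸ mem_top _, rfl⟩
      obtain ⟨U, hU, hle'⟩ := normalizer_three_le_four h Q
      exact ⟨U, hU, hle.trans hle'⟩
  rotate_left
  · have hmem := card_sylow_mem_candidates (p := 3) (G := M) (k := 1) (m := 2) (by rw [h6]; norm_num) (by norm_num)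
    have key' : ∀ n ∈ (2 : ℕ).divisors.filter (fun n => n % 3 = 1), n = 1 := by decide
    exact hfin (key' _ hmem)
  · have hmem := card_sylow_mem_candidates (p := 3) (G := M) (k := 1) (m := 1) (by rw [h3]; norm_num) (by norm_num)
    have key' : ∀ n ∈ (1 : ℕ).divisors.filter (fun n => n % 3 = 1), n = 1 := by decide
    exact hfin (key' _ hmem)
  -- order 12
  have hmem := card_sylow_mem_candidates (p := 3) (G := M) (k := 1) (m := 4) (by rw [h12]; norm_num) (by norm_num)
  have key' : ∀ n ∈ (4 : ℕ).divisors.filter (fun n => n % 3 = 1), n = 1 ∨ n = 4 := by decide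
  rcases key' _ hmem with h1 | h4
  · exact hfin h1
  have hA : Nat.card {x : M // orderOf x = 3} = 8 := by
    rw [card_orderOf_eq_prime (p := 3) (m := 4) (by rw [h12]) (by norm_num), h4]
  have hcardV : ∀ V : Sylow 2 M, Nat.card (V : Subgroup M) = 4 := fun V => by
    rw [card_sylow_subgroup_eq (k := 2) (m := 3) (by rw [h12]; norm_num) (by norm_num) V]; norm_num
  have hnV : ∀ V : Sylow 2 M, ∀ x ∈ (V : Subgroup M), orderOf x ≠ 3 := fun V x hx e => by
    have := Subgroup.orderOf_dvd_natCard (s := (V : Subgroup M)) hx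
    rw [hcardV V, e] at this
    norm_num at this
  obtain ⟨V⟩ := (inferInstance : Nonempty (Sylow 2 M))
  have hcov : ∀ x : M, orderOf x ≠ 3 → x ∈ (V : Subgroup M) := by
    intro x hx
    by_contra hxV
    have hf : Function.Injective (Sum.elim (fun a : {x : M // orderOf x = 3} => a.1)
        (Sum.elim (fun v : (V : Subgroup M) => v.1) (fun _ : Unit => x))) := by
      rintro (a | v | u) (a' | v' | u') e <;>
        simp only [Sum.elim_inl, Sum.elim_inr] at e
      · exact congrArg Sum.inl (Subtype.ext e)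
      · exact absurd a.2 (e ▸ hnV V _ v'.2)
      · exact absurd a.2 (e ▸ hx)
      · exact absurd a'.2 (e ▸ hnV V _ v.2)
      · exact congrArg (Sum.inr ∘ Sum.inl) (Subtype.ext e)
      · exact absurd v.2 (e ▸ hxV)
      · exact absurd a'.2 (e ▸ hx)
      · exact absurd v'.2 (e ▸ hxV)
      · rfl
    have := Nat.card_le_card_of_injective _ hf
    rw [Nat.card_sum, Nat.card_sum, hA, hcardV, Nat.card_unique, h12] at this
    omega
  have huniq : ∀ W : Sylow 2 M, W = V := fun W => Sylow.ext
    (eq_of_le_of_card_ge (fun x hx => hcov x (hnV W x hx)) (by rw [hcardV, hcardV]))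
  haveI : Subsingleton (Sylow 2 M) := ⟨fun a b => (huniq a).trans (huniq b).symm⟩
  have hVn := sylow_normal_of_card_eq_one (Nat.card_of_subsingleton V) V
  set W : Subgroup G := (V : Subgroup M).map M.subtype with hW
  have hMW : M ≤ normalizer (W : Set G) := fun g hg =>
    le_normalizer_map M.subtype ⟨⟨g, hg⟩, (normalizer_eq_top_iff.mpr hVn).symm ▸ mem_top _, rfl⟩
  have hW4 : Nat.card W = 4 := by rw [hW, card_map_of_injective M.subtype_injective, hcardV]
  refine ⟨W, isKleinFour_intro hW4 fun x hx => ?_, hMW⟩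
  have hxd := Subgroup.orderOf_dvd_natCard (s := W) hx
  rw [hW4] at hxd
  rcases orderOf_cases h x with e | e | e | e | e
  · rw [orderOf_eq_one_iff.mp e, one_mul]
  · rw [e] at hxd; norm_num at hxd
  · rw [e] at hxd; norm_num at hxd
  · rw [← sq, ← e, pow_orderOf_eq_one]
  exfalso
  have hz : zpowers x = W := eq_of_le_of_card_ge (zpowers_le.mpr hx) (by rw [Nat.card_zpowers, e, hW4])
  obtain ⟨d, hd⟩ := exists_prime_orderOf_dvd_card' (G := M) 3 (by rw [h12]; norm_num)
  rw [← orderOf_coe] at hd
  have hd' : (d : G) * x * (d : G)⁻¹ ∈ zpowers x := hz.symm ▸ (mem_normalizer_iff.mp (hMW d.2) x).mp hx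
  have ho : orderOf ((d : G) * x * (d : G)⁻¹) = 4 :=
    (orderOf_injective (MulAut.conj (d : G)).toMonoidHom (MulAut.conj (d : G)).injective x).trans e
  have hsq : (d : G) * x ^ 2 * (d : G)⁻¹ = x ^ 2 := by
    have : ((d : G) * x * (d : G)⁻¹) ^ 2 = x ^ 2 := by
      rcases zpow_four_cases h e hd' with c | c | c | c <;> rw [c] at ho ⊢
      · rw [orderOf_one] at ho; norm_num at ho
      · rw [orderOf_pow, e] at ho; norm_num at ho
      · rw [inv_pow, inv_eq_of_mul_eq_one_left]
        rw [← pow_add, show 2 + 2 = 4 from rfl, ← e, pow_orderOf_eq_one]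
    rwa [conj_pow] at this
  have hx2 : orderOf (x ^ 2) = 2 := by rw [orderOf_pow, e]; norm_num
  have hm := mem_zpowers_of_commute h (d := (d : G)) (g := x ^ 2) (.inl hd) (mul_inv_eq_iff_eq_mul.mp hsq).symm
  have hdd := Subgroup.orderOf_dvd_natCard (s := zpowers (d : G)) hm
  rw [Nat.card_zpowers, hx2, hd] at hdd
  norm_num at hdd

theorem eq_normalizer_seven {M : Subgroup G} (hM : IsCoatom M) (h7 : 7 ∣ Nat.card M) :
    ∃ P : Sylow 7 G, M = normalizer ((P : Subgroup G) : Set G) := by
  obtain ⟨m, hm⟩ := h7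
  have h24 := card_le_of_ne_top h hM.1
  have hpos : 0 < Nat.card M := Nat.card_pos
  have hm7 : ¬ 7 ∣ m := fun hd => by have := Nat.le_of_dvd (by omega) hd; omega
  have hmem := card_sylow_mem_candidates (p := 7) (G := M) (k := 1) (m := m) (by rw [hm, pow_one]) hm7
  obtain ⟨hd1, hd2⟩ := Finset.mem_filter.mp hmem
  have := Nat.le_of_dvd (by omega) (Nat.dvd_of_mem_divisors hd1)
  have h1 : Nat.card (Sylow 7 M) = 1 := by omega
  obtain ⟨R⟩ := (inferInstance : Nonempty (Sylow 7 M))
  obtain ⟨P, hP⟩ := (R.isPGroup'.map M.subtype).exists_le_sylow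
  have hPeq : (R : Subgroup M).map M.subtype = (P : Subgroup G) := eq_of_le_of_card_ge hP (by
    rw [card_seven h P, card_map_of_injective M.subtype_injective,
      card_sylow_subgroup_eq (k := 1) (m := m) (by rw [hm, pow_one]) hm7 R, pow_one])
  have hle : M ≤ normalizer ((P : Subgroup G) : Set G) := by
    rw [← hPeq]
    intro g hg
    exact le_normalizer_map M.subtype ⟨⟨g, hg⟩, (normalizer_eq_top_iff.mpr (sylow_normal_of_card_eq_one h1 R)).symm ▸ mem_top _, rfl⟩
  refine ⟨P, (hM.le_iff.mp hle).resolve_left ?_ |>.symm⟩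
  intro e
  have := card_normalizer_seven h P
  rw [e, card_top, h] at this
  omega

theorem coatom_cases {M : Subgroup G} (hM : IsCoatom M) :
    (∃ U : Subgroup G, IsKleinFour U ∧ M = normalizer (U : Set G)) ∨
      ∃ P : Sylow 7 G, M = normalizer ((P : Subgroup G) : Set G) := by
  by_cases h7 : 7 ∣ Nat.card M
  · exact .inr (eq_normalizer_seven h hM h7)
  · have hd : Nat.card M ∣ 7 * 24 := by
      rw [show 7 * 24 = 168 by norm_num, ← h]; exact card_subgroup_dvd_card M
    have h24 : Nat.card M ∣ 24 :=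
      (((Nat.Prime.coprime_iff_not_dvd (by norm_num)).mpr h7).symm).dvd_of_dvd_mul_left hd
    obtain ⟨U, hU, hle⟩ := le_normalizer_four h h24
    exact .inl ⟨U, hU, ((hM.le_iff.mp hle).resolve_left (normalizer_four_ne_top h hU)).symm⟩

theorem normalizer_seven_not_comm (P : Sylow 7 G) :
    ¬ IsMulCommutative (normalizer ((P : Subgroup G) : Set G)) := fun hc => by
  have hle : normalizer ((P : Subgroup G) : Set G) ≤ centralizer ((P : Subgroup G) : Set G) := fun a ha =>
    mem_centralizer_iff.mpr fun b hb =>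
      congrArg Subtype.val (hc.is_comm.comm (⟨b, le_normalizer hb⟩ : normalizer ((P : Subgroup G) : Set G)) ⟨a, ha⟩)
  have := card_le_of_le hle
  rw [centralizer_seven h P, card_seven h P, card_normalizer_seven h P] at this
  omega

end

end CfsgLib.Simple168
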